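import Cfsg.Agent.Perm2.Socle
import Cfsg.Agent.FT.Final

/-! Extremely primitive affine groups: the basic set-up. -/

set_option autoImplicit false

namespace Cfsg.Agent.ExtPrim

open Subgroup MulAction Cfsg.Agent.Perm2

/-- A group acting on an abelian group with maximal, core-free vector stabilisers. -/
structure Hyp (H V : Type*) [Group H] [AddCommGroup V] [DistribMulAction H V] : Prop where
  max : ∀ v : V, v ≠ 0 → IsCoatom (stabilizer H v)
  faith : ∀ K : Subgroup H, K.Normal → ∀ v : V, v ≠ 0 → K ≤ stabilizer H v → K = ⊥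

variable {H V : Type*} [Group H] [AddCommGroup V] [DistribMulAction H V]

theorem Hyp.dich (h : Hyp H V) {v : V} (hv : v ≠ 0) {K : Subgroup H}
    (hK : stabilizer H v ≤ normalizer (K : Set H)) :
    normalizer (K : Set H) = stabilizer H v ∨ K.Normal := by
  rcases (h.max v hv).le_iff.mp hK with h1 | h1
  · exact Or.inr (normalizer_eq_top_iff.mp h1)
  · exact Or.inl h1

theorem Hyp.sup_eq_top (h : Hyp H V) {v : V} (hv : v ≠ 0) {K : Subgroup H} (hK : K.Normal)
    (hne : K ≠ ⊥) : K ⊔ stabilizer H v = ⊤ := by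
  rcases (h.max v hv).le_iff.mp (le_sup_right : stabilizer H v ≤ K ⊔ stabilizer H v) with h1 | h1
  · exact h1
  · exact absurd (h.faith K hK v hv (h1 ▸ le_sup_left)) hne

theorem Hyp.exists_mul (h : Hyp H V) {v : V} (hv : v ≠ 0) {K : Subgroup H} (hK : K.Normal)
    (hne : K ≠ ⊥) (x : H) : ∃ k ∈ K, ∃ g : H, g • v = v ∧ x = k * g := by
  have hx : x ∈ ((K ⊔ stabilizer H v : Subgroup H) : Set H) := by
    rw [h.sup_eq_top hv hK hne]; trivial
  rw [Subgroup.normal_mul] at hx
  obtain ⟨k, hk, g, hg, rfl⟩ := hx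
  exact ⟨k, hk, g, hg, rfl⟩

theorem Hyp.exists_mul' (h : Hyp H V) {v : V} (hv : v ≠ 0) {K : Subgroup H} (hK : K.Normal)
    (hne : K ≠ ⊥) (x : H) : ∃ g : H, g • v = v ∧ ∃ k ∈ K, x = g * k := by
  obtain ⟨k, hk, g, hg, e⟩ := h.exists_mul hv hK hne x⁻¹
  refine ⟨g⁻¹, by rw [inv_smul_eq_iff, hg], k⁻¹, K.inv_mem hk, ?_⟩
  rw [← mul_inv_rev, ← e, inv_inv]

/-- If `K` is normalised by the stabiliser and by a nontrivial normal subgroup `L`, then
`K ⊓ stabilizer` is trivial. -/
theorem Hyp.inf_eq_bot (h : Hyp H V) {v : V} (hv : v ≠ 0) {K L : Subgroup H} (hK : K.Normal)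
    (hL : L.Normal) (hne : L ≠ ⊥) (hc : ∀ x ∈ K, ∀ y ∈ L, x * y = y * x) {x : H} (hx : x ∈ K)
    (hxv : x • v = v) : x = 1 := by
  have h1 : stabilizer H v ≤ normalizer ((K ⊓ stabilizer H v : Subgroup H) : Set H) := by
    rw [le_normalizer_iff]
    intro g hg y hy
    refine ⟨hK.conj_mem _ hy.1 g, ?_⟩
    have hy2 : y ∈ stabilizer H v := hy.2
    exact (stabilizer H v).mul_mem ((stabilizer H v).mul_mem hg hy2) ((stabilizer H v).inv_mem hg)
  rcases h.dich hv h1 with h2 | h2
  · exfalso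
    apply hne
    apply h.faith L hL v hv
    rw [← h2, le_normalizer_iff]
    intro g hg y hy
    have : g * y * g⁻¹ = y := by rw [← hc y hy.1 g hg]; group
    rw [this]; exact hy
  · have := h.faith _ h2 v hv inf_le_right
    have hx' : x ∈ K ⊓ stabilizer H v := ⟨hx, hxv⟩
    rw [this] at hx'
    exact hx'

theorem exists_inv_of_not_solvable {G : Type*} [Group G] [Finite G] (hs : ¬ Group.IsSolvable G) :
    ∃ t : G, t ≠ 1 ∧ t * t = 1 := by
  have h2 : 2 ∣ Nat.card G := by
    by_contra h2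
    exact hs (Cfsg.Agent.FT.oddOrder G (Nat.odd_iff.mpr (by omega)))
  haveI : Fact (Nat.Prime 2) := ⟨Nat.prime_two⟩
  obtain ⟨t, ht⟩ := exists_prime_orderOf_dvd_card' 2 h2
  refine ⟨t, ?_, ?_⟩
  · rintro rfl
    simp at ht
  · rw [← pow_two, ← ht, pow_orderOf_eq_one]

theorem exists_inv_mem {G : Type*} [Group G] [Finite G] {T : Subgroup G} (hT : SimpleNA T) :
    ∃ t ∈ T, t ≠ 1 ∧ t * t = 1 := by
  obtain ⟨t, h1, h2⟩ := exists_inv_of_not_solvable hT.not_isSolvable
  exact ⟨t, t.2, fun e => h1 (Subtype.ext e), congrArg Subtype.val h2⟩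

/-- There is a nonzero vector of order two. -/
theorem Hyp.exists_two [Finite H] [Nontrivial V] (h : Hyp H V) (hs : ¬ Group.IsSolvable H) :
    ∃ a : V, a ≠ 0 ∧ a + a = 0 := by
  obtain ⟨t, ht1, ht2⟩ := exists_inv_of_not_solvable hs
  by_contra hcon
  push Not at hcon
  have hex : ∃ v : V, t • v ≠ v := by
    by_contra h0
    push Not at h0
    obtain ⟨w, hw⟩ := exists_ne (0 : V)
    have := h.faith (toPermHom H V).ker inferInstance w hw (fun g hg => by
      have := congrArg (fun σ : Equiv.Perm V => σ w) (MonoidHom.mem_ker.mp hg)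
      simpa using this)
    have ht : t ∈ (toPermHom H V).ker := by
      rw [MonoidHom.mem_ker]; ext v; simpa using h0 v
    rw [this] at ht
    exact ht1 ht
  obtain ⟨v, hv⟩ := hex
  set a : V := v - t • v with ha
  have ha0 : a ≠ 0 := sub_ne_zero.mpr hv.symm
  have hta : t • a = -a := by
    rw [ha, smul_sub, smul_smul, ht2, one_smul, neg_sub]
  let K : Subgroup H :=
    { carrier := {g | g • a = a ∨ g • a = -a}
      one_mem' := Or.inl (one_smul _ _)
      mul_mem' := by
        rintro x y (hx | hx) (hy | hy)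
        · left; rw [mul_smul, hy, hx]
        · right; rw [mul_smul, hy, smul_neg, hx]
        · right; rw [mul_smul, hy, hx]
        · left; rw [mul_smul, hy, smul_neg, hx, neg_neg]
      inv_mem' := by
        rintro x (hx | hx)
        · left; rw [inv_smul_eq_iff, hx]
        · right; rw [inv_smul_eq_iff, smul_neg, hx, neg_neg] }
  have hK : K = ⊤ := by
    rcases (h.max a ha0).le_iff.mp (show stabilizer H a ≤ K from fun g hg => Or.inl hg) with h1 | h1
    · exact h1
    · exfalso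
      have : t ∈ K := Or.inr hta
      rw [h1, mem_stabilizer_iff, hta] at this
      exact hcon a ha0 (by nth_rewrite 1 [← this]; simp)
  have hall : ∀ g : H, g • a = a ∨ g • a = -a := fun g => by
    have : g ∈ K := hK ▸ mem_top g
    exact this
  have hn : (stabilizer H a).Normal := ⟨fun x hx g => by
    rw [mem_stabilizer_iff] at hx ⊢
    rw [mul_smul, mul_smul]
    rcases hall g⁻¹ with h1 | h1
    · rw [h1, hx, ← h1, smul_inv_smul, h1]
    · rw [h1, smul_neg, hx, ← h1, smul_inv_smul]⟩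
  have hb := h.faith _ hn a ha0 le_rfl
  apply hs
  apply Group.isSolvable_of_comm
  intro x y
  have : x * y * (y * x)⁻¹ ∈ stabilizer H a := by
    rw [mem_stabilizer_iff, mul_smul, ← eq_inv_smul_iff]
    have e : (x * y) • a = (y * x) • a := by
      rw [mul_smul, mul_smul]
      rcases hall x with h1 | h1 <;> rcases hall y with h2 | h2 <;> simp [h1, h2, smul_neg]
    rcases hall (x * y) with h1 | h1
    · have h2 := e ▸ h1
      rw [inv_smul_eq_iff.mpr h1.symm, inv_smul_eq_iff.mpr h2.symm]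
    · have h2 := e ▸ h1
      have h3 : (x * y) • (-a) = a := by rw [smul_neg, h1, neg_neg]
      have h4 : (y * x) • (-a) = a := by rw [smul_neg, h2, neg_neg]
      rw [inv_smul_eq_iff.mpr h3.symm, inv_smul_eq_iff.mpr h4.symm]
  rw [hb, mem_bot, mul_inv_eq_one] at this
  exact this

theorem inv_fix (h2 : ∀ v : V, v + v = 0) {s : H} (hs : s * s = 1) (u : V) :
    s • (u + s • u) = u + s • u := by
  rw [smul_add, smul_smul, hs, one_smul, add_comm]

theorem add_eq_zero_iff' (h2 : ∀ v : V, v + v = 0) {u w : V} : u + w = 0 ↔ w = u := by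
  constructor
  · intro h
    have : u + w = u + u := by rw [h, h2]
    exact add_left_cancel this
  · rintro rfl
    exact h2 _

theorem exists_fix [Nontrivial V] (h2 : ∀ v : V, v + v = 0) {s : H} (hs : s * s = 1) :
    ∃ v : V, v ≠ 0 ∧ s • v = v := by
  obtain ⟨u, hu⟩ := exists_ne (0 : V)
  by_cases h : s • u = u
  · exact ⟨u, hu, h⟩
  · exact ⟨u + s • u, fun e => h ((add_eq_zero_iff' h2).mp e), inv_fix h2 hs u⟩

theorem sum_pow_eq_zero {x : H} {r : ℕ} (hx : x ^ r = 1) (hf : ∀ v : V, x • v = v → v = 0)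
    (v : V) : ∑ j ∈ Finset.range r, x ^ j • v = 0 := by
  apply hf
  rw [Finset.smul_sum]
  have h1 := Finset.sum_range_succ (fun j => x ^ j • v) r
  have h2 := Finset.sum_range_succ' (fun j => x ^ j • v) r
  rw [h1, hx, pow_zero] at h2
  have h3 := add_right_cancel h2
  rw [h3]
  refine Finset.sum_congr rfl fun j _ => ?_
  rw [smul_smul, pow_succ']

/-- Two commuting elements of prime order acting fixed-point-freely generate a cyclic group. -/
theorem mem_zpowers_of_fpf [Finite H] [Nontrivial V] (h2 : ∀ v : V, v + v = 0) {M : Subgroup H}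
    {r : ℕ} (hr : r.Prime) (hc : ∀ x ∈ M, ∀ y ∈ M, x * y = y * x) (he : ∀ x ∈ M, x ^ r = 1)
    (hf : ∀ x ∈ M, x ≠ 1 → ∀ v : V, x • v = v → v = 0) {a b : H} (ha : a ∈ M) (ha1 : a ≠ 1)
    (hb : b ∈ M) : b ∈ zpowers a := by
  by_contra hba
  have hr2 : r ≠ 2 := by
    rintro rfl
    obtain ⟨v, hv, hv'⟩ := exists_fix (V := V) h2 (s := a) (by rw [← pow_two]; exact he a ha)
    exact hv (hf a ha ha1 v hv')
  obtain ⟨v, hv⟩ := exists_ne (0 : V)
  have hcomm : Commute a b := hc a ha b hb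
  have e1 : ∑ i ∈ Finset.range r, ∑ j ∈ Finset.range r, (a ^ i * b) ^ j • v = 0 := by
    refine Finset.sum_eq_zero fun i _ => ?_
    have hm : a ^ i * b ∈ M := mul_mem (pow_mem ha i) hb
    refine sum_pow_eq_zero (he _ hm) (hf _ hm ?_) v
    intro e
    apply hba
    have : b = (a ^ i)⁻¹ := eq_inv_of_mul_eq_one_right e
    rw [this]
    exact inv_mem (pow_mem (mem_zpowers a) i)
  rw [Finset.sum_comm] at e1
  have e2 : ∀ j ∈ Finset.range r, j ≠ 0 →
      ∑ i ∈ Finset.range r, (a ^ i * b) ^ j • v = 0 := by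
    intro j hj hj0
    have : ∀ i, (a ^ i * b) ^ j • v = (a ^ j) ^ i • (b ^ j • v) := fun i => by
      rw [(hcomm.pow_left i).mul_pow, mul_smul, ← pow_mul, ← pow_mul, mul_comm]
    simp_rw [this]
    have hm : a ^ j ∈ M := pow_mem ha j
    refine sum_pow_eq_zero (he _ hm) (hf _ hm ?_) _
    intro e
    haveI := Fact.mk hr
    have ho : orderOf a = r := orderOf_eq_prime (he a ha) ha1
    have := orderOf_dvd_of_pow_eq_one e
    rw [ho] at this
    exact absurd (Nat.le_of_dvd (Nat.pos_of_ne_zero hj0) this) (by simpa using hj)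
  rw [Finset.sum_eq_single 0 e2 (fun h0 => absurd (Finset.mem_range.mpr hr.pos) h0)] at e1
  simp only [pow_zero, one_smul, Finset.sum_const, Finset.card_range] at e1
  obtain ⟨k, hk⟩ := hr.odd_of_ne_two hr2
  rw [hk, add_nsmul, mul_comm, mul_nsmul, two_nsmul, h2, zero_add, one_nsmul] at e1
  exact hv e1

/-- No abelian minimal normal subgroup. -/
theorem Hyp.not_abelian [Finite H] [Nontrivial V] (h : Hyp H V) (hs : ¬ Group.IsSolvable H)
    (h2 : ∀ v : V, v + v = 0) {M : Subgroup H} (hM : M.Normal) (hne : M ≠ ⊥) {r : ℕ}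
    (hr : r.Prime) (hc : ∀ x ∈ M, ∀ y ∈ M, x * y = y * x) (he : ∀ x ∈ M, x ^ r = 1) : False := by
  have hf : ∀ x ∈ M, x ≠ 1 → ∀ v : V, x • v = v → v = 0 := fun x hx hx1 v hv => by
    by_contra hv0
    exact hx1 (h.inf_eq_bot hv0 hM hM hne hc hx hv)
  obtain ⟨⟨a, ha⟩, ha1⟩ := ne_bot_iff_exists_ne_one.mp hne
  have ha1 : a ≠ 1 := fun e => ha1 (Subtype.ext e)
  have hz : ∀ b ∈ M, ∃ k : ℤ, a ^ k = b := fun b hb =>
    mem_zpowers_iff.mp (mem_zpowers_of_fpf h2 hr hc he hf ha ha1 hb)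
  have hC : centralizer (M : Set H) ≤ M := by
    intro c hcM
    obtain ⟨v, hv⟩ := exists_ne (0 : V)
    obtain ⟨k, hk, g, hg, e⟩ := h.exists_mul hv hM hne c
    have hgC : g ∈ centralizer (M : Set H) := by
      have : g = k⁻¹ * c := by rw [e]; group
      rw [this]
      refine mul_mem (inv_mem ?_) hcM
      intro y hy
      exact hc y hy k hk
    have hg1 := h.inf_eq_bot hv (K := centralizer (M : Set H)) inferInstance hM hne
      (fun x hx y hy => (hx y hy).symm) hgC hg
    rw [e, hg1, mul_one]; exact hk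
  have hD : commutator H ≤ M := by
    refine le_trans ?_ hC
    rw [commutator_def, commutator_le]
    intro x _ y _
    have key : x * y * a * (x * y)⁻¹ = y * x * a * (y * x)⁻¹ := by
      obtain ⟨k, hk⟩ := hz _ (hM.conj_mem a ha x)
      obtain ⟨l, hl⟩ := hz _ (hM.conj_mem a ha y)
      have e1 : x * y * a * (x * y)⁻¹ = x * (y * a * y⁻¹) * x⁻¹ := by group
      have e2 : y * x * a * (y * x)⁻¹ = y * (x * a * x⁻¹) * y⁻¹ := by group
      rw [e1, e2, ← hk, ← hl, ← conj_zpow, ← conj_zpow, ← hk, ← hl, ← zpow_mul, ← zpow_mul,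
        mul_comm]
    intro m hm
    obtain ⟨b, hb, rfl⟩ : ∃ b ∈ M, m = (y * x) * b * (y * x)⁻¹ :=
      ⟨(y * x)⁻¹ * m * (y * x), hM.conj_mem' m hm _, by group⟩
    obtain ⟨k, rfl⟩ := hz b hb
    have key' : x * y * a ^ k * (x * y)⁻¹ = y * x * a ^ k * (y * x)⁻¹ := by
      rw [← conj_zpow, ← conj_zpow, key]
    rw [commutatorElement_def]
    calc y * x * a ^ k * (y * x)⁻¹ * (x * y * x⁻¹ * y⁻¹)
        = (x * y * a ^ k * (x * y)⁻¹) * (x * y * x⁻¹ * y⁻¹) := by rw [key']
      _ = x * y * x⁻¹ * y⁻¹ * (y * x * a ^ k * (y * x)⁻¹) := by group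
  apply hs
  refine ⟨⟨2, ?_⟩⟩
  rw [derivedSeries_succ, derivedSeries_one, eq_bot_iff, commutator_le]
  intro x hx y hy
  rw [mem_bot, commutatorElement_eq_one_iff_mul_comm]
  exact hc x (hD hx) y (hD hy)

end Cfsg.Agent.ExtPrim
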