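import Cfsg.Agent.ExtPrim.Prod

/-! Extremely primitive affine groups: the endgame. -/

set_option autoImplicit false

namespace Cfsg.Agent.ExtPrim

open Subgroup MulAction Cfsg.Agent.Perm2

variable {H V : Type*} [Group H] [AddCommGroup V] [DistribMulAction H V]

theorem exists_comm_inv_aux {G : Type*} [Group G] [Finite G] [IsSimpleGroup G]
    (hnc : ¬ ∀ x y : G, x * y = y * x) (h4 : ∀ x : G, x * x * (x * x) = 1 → x * x = 1) {s : G}
    (hs1 : s ≠ 1) (hs2 : s * s = 1) :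
    ∃ e : G, e ≠ 1 ∧ e ≠ s ∧ e * e = 1 ∧ s * e = e * s := by
  haveI : Fact (Nat.Prime 2) := ⟨Nat.prime_two⟩
  have hos : orderOf s = 2 := orderOf_eq_prime (by rw [pow_two, hs2]) hs1
  have hp : IsPGroup 2 (zpowers s) := IsPGroup.of_card (n := 1) (by rw [Nat.card_zpowers, hos]; rfl)
  obtain ⟨P, hP⟩ := hp.exists_le_sylow
  have hsP : s ∈ (P : Subgroup G) := hP (mem_zpowers s)
  have hpow : ∀ (k : ℕ) (x : G), x ^ 2 ^ k = 1 → x * x = 1 := by
    intro k
    induction k with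
    | zero => intro x hx; simp at hx; simp [hx]
    | succ k ih =>
      intro x hx
      apply h4
      apply ih
      rw [← pow_two, ← pow_mul, ← pow_succ', hx]
  have hsq : ∀ x ∈ (P : Subgroup G), x * x = 1 := by
    intro x hx
    obtain ⟨k, hk⟩ := P.isPGroup' ⟨x, hx⟩
    exact hpow k x (congrArg Subtype.val hk)
  by_contra hcon
  push Not at hcon
  have hall : ∀ x ∈ (P : Subgroup G), x = 1 ∨ x = s := by
    intro x hx
    by_contra h
    push Not at h
    apply hcon x h.1 h.2 (hsq x hx)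
    have h1 := hsq _ (P.1.mul_mem hsP hx)
    have h2 := hsq x hx
    calc s * x = (s * x)⁻¹ := (eq_inv_of_mul_eq_one_left h1)
      _ = x * s := by
        rw [mul_inv_rev, inv_eq_of_mul_eq_one_left h2, inv_eq_of_mul_eq_one_left hs2]
  have hcyc : IsCyclic P := by
    refine ⟨⟨⟨s, hsP⟩, fun x => ?_⟩⟩
    rcases hall x x.2 with h | h
    · exact ⟨0, Subtype.ext (by simp [h])⟩
    · exact ⟨1, Subtype.ext (by simp [h])⟩
  have h2 : 2 ∣ Nat.card G := hos ▸ orderOf_dvd_natCard s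
  have hc := IsCyclic.isComplement' ((Nat.minFac_eq_two_iff _).2 h2) hcyc
  rcases IsSimpleGroup.eq_bot_or_eq_top_of_normal _
    (inferInstance : (MonoidHom.transferSylow P
      (hcyc.normalizer_le_centralizer ((Nat.minFac_eq_two_iff _).2 h2))).ker.Normal) with h | h
  · rw [h, isComplement'_bot_left] at hc
    apply hnc
    intro x y
    rcases hall x (hc ▸ mem_top x) with h1 | h1 <;> rcases hall y (hc ▸ mem_top y) with h2 | h2 <;>
      simp [h1, h2]
  · rw [h, isComplement'_top_left] at hc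
    rw [hc] at hsP
    exact hs1 hsP

theorem exists_comm_inv [Finite H] {T : Subgroup H} (hT : SimpleNA T)
    (h4 : ∀ x ∈ T, x * x * (x * x) = 1 → x * x = 1) {s : H} (hs : s ∈ T)
    (hs1 : s ≠ 1) (hs2 : s * s = 1) :
    ∃ e ∈ T, e ≠ 1 ∧ e ≠ s ∧ e * e = 1 ∧ s * e = e * s := by
  haveI := hT.1
  obtain ⟨e, h1, h2, h3, h5⟩ := exists_comm_inv_aux (G := T) (s := ⟨s, hs⟩)
    (fun h => hT.2 (isMulCommutative_iff_forall.mpr fun x hx y hy =>
      congrArg Subtype.val (h ⟨x, hx⟩ ⟨y, hy⟩)))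
    (fun x hx => Subtype.ext (h4 x x.2 (congrArg Subtype.val hx)))
    (fun e => hs1 (congrArg Subtype.val e)) (Subtype.ext hs2)
  exact ⟨e, e.2, fun h => h1 (Subtype.ext h), fun h => h2 (Subtype.ext h),
    congrArg Subtype.val h3, congrArg Subtype.val h5⟩

/-- The final configuration. -/
structure Fin' (T : Subgroup H) (U : AddSubgroup V) : Prop where
  two : ∀ v : V, v + v = 0
  simp : SimpleNA T
  inv : ∀ t ∈ T, ∀ u ∈ U, t • u ∈ U
  ne : ∃ u ∈ U, u ≠ 0
  P1 : ∀ u ∈ U, u ≠ 0 → ∀ t ∈ T, t • u ≠ u → (t * t) • u = u → ∀ r ∈ T, r • u = u →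
    r • t • u = t • u → r = 1
  nf : ∀ v : V, v ≠ 0 → ¬ ∀ t ∈ T, t • v = v
  nfix : ∀ a : V, a ≠ 0 → ∀ s ∈ T, s ≠ 1 → s * s = 1 → s • a = a → ∀ x ∈ T,
    (∀ e ∈ T, e * e = 1 → e • a = a → (x * e * x⁻¹) • a = a) → x • a = a

variable {T : Subgroup H} {U : AddSubgroup V}

theorem Fin'.faith (c : Fin' T U) {x : H} (hx : x ∈ T) (h : ∀ u ∈ U, x • u = u) : x = 1 := by
  let K : Subgroup H :=
    { carrier := {x | x ∈ T ∧ ∀ u ∈ U, x • u = u}
      one_mem' := ⟨T.one_mem, fun u _ => one_smul _ _⟩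
      mul_mem' := fun ha hb => ⟨T.mul_mem ha.1 hb.1, fun u hu => by
        rw [mul_smul, hb.2 u hu, ha.2 u hu]⟩
      inv_mem' := fun ha => ⟨T.inv_mem ha.1, fun u hu => by rw [inv_smul_eq_iff, ha.2 u hu]⟩ }
  have hn : NormalIn K T := by
    refine ⟨fun x hx => hx.1, ?_⟩
    rw [le_normalizer_iff]
    intro g hg y hy
    refine ⟨T.mul_mem (T.mul_mem hg hy.1) (T.inv_mem hg), fun u hu => ?_⟩
    rw [mul_smul, mul_smul, hy.2 _ (c.inv _ (T.inv_mem hg) u hu), smul_inv_smul]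
  rcases c.simp.eq_bot_or_eq hn with e | e
  · have : x ∈ K := ⟨hx, h⟩
    rw [e] at this
    exact this
  · obtain ⟨u, hu, hu0⟩ := c.ne
    refine absurd (fun t ht => ?_) (c.nf u hu0)
    rw [← e] at ht
    exact ht.2 u hu

theorem Fin'.fix (c : Fin' T U) {u : V} (hu : u ∈ U) {t : H} (ht : t ∈ T)
    (ht2 : (t * t) • u = u) {r : H} (hr : r ∈ T) (hr1 : r ≠ 1) (hru : r • u = u)
    (hrt : r • t • u = t • u) : t • u = u := by
  by_cases hu0 : u = 0
  · rw [hu0, smul_zero]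
  by_contra h
  exact hr1 (c.P1 u hu hu0 t ht h ht2 r hr hru hrt)

theorem Fin'.no4 (c : Fin' T U) (x : H) (hx : x ∈ T) (h4 : x * x * (x * x) = 1) : x * x = 1 := by
  by_contra h2
  have hC : ∀ u ∈ U, (x * x) • u = u → x • u = u := fun u hu h =>
    c.fix hu hx h (T.mul_mem hx hx) h2 h (by rw [smul_smul, mul_assoc, mul_smul, h])
  apply h2
  apply c.faith (T.mul_mem hx hx)
  intro u hu
  have h1 : x • (u + (x * x) • u) = u + (x * x) • u :=
    hC _ (U.add_mem hu (c.inv _ (T.mul_mem hx hx) u hu)) (inv_fix c.two h4 u)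
  have hb : (x * x) • (u + x • u) = u + x • u := by
    rw [smul_add] at h1 ⊢
    have e : (x * x) • x • u = x • (x * x) • u := by rw [smul_smul, smul_smul, mul_assoc]
    rw [e]
    have t1 := c.two (x • u)
    have t2 := c.two ((x * x) • u)
    calc (x * x) • u + x • (x * x) • u
        = (x * x) • u + (x • u + x • (x * x) • u) + x • u - (x • u + x • u) := by abel
      _ = u + x • u + ((x * x) • u + (x * x) • u) - (x • u + x • u) := by rw [h1]; abel
      _ = u + x • u := by rw [t1, t2]; abel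
  have h3 := hC _ (U.add_mem hu (c.inv _ hx u hu)) hb
  rw [smul_add, smul_smul, add_comm] at h3
  exact add_right_cancel h3

theorem Fin'.comm (c : Fin' T U) {s y : H} (hs : s ∈ T) (hs2 : s * s = 1) (hy : y ∈ T)
    (hy1 : y ≠ 1) (hc : s * y = y * s) {u : V} (hu : u ∈ U) (hyu : y • u = u) : s • u = u :=
  c.fix hu hs (by rw [hs2, one_smul]) hy hy1 hyu (by rw [smul_smul, ← hc, mul_smul, hyu])

theorem Fin'.invert (c : Fin' T U) {s y : H} (hs : s ∈ T) (hs2 : s * s = 1) (hy : y ∈ T)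
    (hy1 : y ≠ 1) (hc : y * s = s * y⁻¹) {u : V} (hu : u ∈ U) (hyu : y • u = u) : s • u = u :=
  c.fix hu hs (by rw [hs2, one_smul]) hy hy1 hyu
    (by rw [smul_smul, hc, mul_smul, inv_smul_eq_iff.mpr hyu.symm])

theorem dih_left {s t : H} (hs : s * s = 1) (ht : t * t = 1) (k : ℤ) :
    (s * t) ^ k * s = s * ((s * t) ^ k)⁻¹ := by
  have hs' : s⁻¹ = s := inv_eq_of_mul_eq_one_left hs
  have ht' : t⁻¹ = t := inv_eq_of_mul_eq_one_left ht
  have : s * (s * t)⁻¹ * s⁻¹ = s * t := by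
    rw [mul_inv_rev, ht', hs', mul_assoc, mul_assoc, hs, mul_one]
  rw [← inv_zpow]
  nth_rewrite 1 [← this]
  rw [conj_zpow]; group

theorem dih_right {s t : H} (hs : s * s = 1) (ht : t * t = 1) (k : ℤ) :
    (s * t) ^ k * t = t * ((s * t) ^ k)⁻¹ := by
  have hs' : s⁻¹ = s := inv_eq_of_mul_eq_one_left hs
  have ht' : t⁻¹ = t := inv_eq_of_mul_eq_one_left ht
  have : t * (s * t)⁻¹ * t⁻¹ = s * t := by
    rw [mul_inv_rev, ht', hs', ← mul_assoc, ht, one_mul]
  rw [← inv_zpow]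
  nth_rewrite 1 [← this]
  rw [conj_zpow]; group

theorem Fin'.odd_or_same [Finite H] (c : Fin' T U) {s t : H} (hs : s ∈ T) (hs1 : s ≠ 1)
    (hs2 : s * s = 1) (ht : t ∈ T) (ht1 : t ≠ 1) (ht2 : t * t = 1) :
    Odd (orderOf (s * t)) ∨ ∀ u ∈ U, s • u = u ↔ t • u = u := by
  rcases Nat.even_or_odd (orderOf (s * t)) with ⟨k, hk⟩ | h
  swap
  · exact Or.inl h
  right
  have hpos := orderOf_pos (s * t)
  set z := (s * t) ^ k with hz
  have hzT : z ∈ T := T.pow_mem (T.mul_mem hs ht) k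
  have hz2 : z * z = 1 := by rw [hz, ← pow_add, ← hk, pow_orderOf_eq_one]
  have hz1 : z ≠ 1 := pow_ne_one_of_lt_orderOf (by omega) (by omega)
  have hz' : z⁻¹ = z := inv_eq_of_mul_eq_one_left hz2
  have h1 : z * s = s * z := by
    have := dih_left hs2 ht2 k
    rwa [zpow_natCast, ← hz, hz'] at this
  have h2 : z * t = t * z := by
    have := dih_right hs2 ht2 k
    rwa [zpow_natCast, ← hz, hz'] at this
  intro u hu
  exact ⟨fun h => c.comm ht ht2 hzT hz1 h2.symm hu (c.comm hzT hz2 hs hs1 h1 hu h),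
    fun h => c.comm hs hs2 hzT hz1 h1.symm hu (c.comm hzT hz2 ht ht1 h2 hu h)⟩

theorem Fin'.same [Finite H] (c : Fin' T U) {s t : H} (hs : s ∈ T) (hs1 : s ≠ 1)
    (hs2 : s * s = 1) (ht : t ∈ T) (ht1 : t ≠ 1) (ht2 : t * t = 1) {v : V} (hv : v ∈ U)
    (ha : v + s • v ≠ 0) (hta : t • (v + s • v) = v + s • v) :
    ∀ u ∈ U, s • u = u ↔ t • u = u := by
  rcases c.odd_or_same hs hs1 hs2 ht ht1 ht2 with hodd | h
  swap
  · exact h
  by_cases hd : s * t = 1
  · have : t = s := by rw [← inv_eq_of_mul_eq_one_right hd, inv_eq_of_mul_eq_one_right hs2]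
    rw [this]
    exact fun _ _ => Iff.rfl
  exfalso
  apply ha
  haveI : Fintype (zpowers (s * t)) := Fintype.ofFinite _
  have hdT : s * t ∈ T := T.mul_mem hs ht
  have hle : zpowers (s * t) ≤ T := zpowers_le_of_mem hdT
  set w : V := ∑ g : zpowers (s * t), (g : H) • v with hw
  have hwU : w ∈ U := U.sum_mem fun g _ => c.inv _ (hle g.2) v hv
  have hdw : (s * t) • w = w := by
    rw [hw, Finset.smul_sum]
    refine Fintype.sum_equiv (Equiv.mulLeft (⟨s * t, mem_zpowers _⟩ : zpowers (s * t))) _ _ ?_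
    intro g
    simp [smul_smul]
  have hsw : s • w = w := by
    refine c.invert hs hs2 hdT hd ?_ hwU hdw
    have := dih_left hs2 ht2 1
    rwa [zpow_one] at this
  have e1 : ∑ g : zpowers (s * t), (g : H) • s • v = s • w := by
    rw [hw, Finset.smul_sum]
    refine Fintype.sum_equiv (Equiv.inv (zpowers (s * t))) _ _ ?_
    rintro ⟨g, k, rfl⟩
    simp only [smul_smul, Equiv.inv_apply, InvMemClass.coe_inv]
    rw [dih_left hs2 ht2 k]
  have e2 : ∑ g : zpowers (s * t), (g : H) • (v + s • v) = 0 := by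
    simp only [smul_add]
    rw [Finset.sum_add_distrib, e1, hsw, ← hw, c.two]
  have e3 : ∀ g : zpowers (s * t), (g : H) • (v + s • v) = v + s • v := by
    intro g
    have : zpowers (s * t) ≤ stabilizer H (v + s • v) := by
      rw [zpowers_le, mem_stabilizer_iff, mul_smul, hta, inv_fix c.two hs2]
    exact this g.2
  simp only [e3, Finset.sum_const, Finset.card_univ] at e2
  obtain ⟨k, hk⟩ := hodd
  rwa [← Nat.card_eq_fintype_card, Nat.card_zpowers, hk, add_nsmul, mul_comm, mul_nsmul, two_nsmul, c.two, zero_add, one_nsmul] at e2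

theorem exists_conj_inv [Finite H] {s t : H} (hs : s ∈ T) (hs2 : s * s = 1) (ht : t ∈ T)
    (ht2 : t * t = 1) (hodd : Odd (orderOf (s * t))) :
    ∃ c ∈ T, c * c = 1 ∧ c * s * c = t := by
  obtain ⟨k, hk⟩ := hodd
  have h1 := dih_left hs2 ht2 (k + 1 : ℕ)
  rw [zpow_natCast] at h1
  set z := (s * t) ^ (k + 1) with hz
  have hzz : z * z = s * t := by
    rw [hz, ← pow_add, show k + 1 + (k + 1) = 2 * k + 1 + 1 by ring, ← hk, pow_succ,
      pow_orderOf_eq_one, one_mul]
  refine ⟨s * z, T.mul_mem hs (T.pow_mem (T.mul_mem hs ht) _), ?_, ?_⟩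
  · rw [mul_assoc, ← mul_assoc z, h1, ← mul_assoc, ← mul_assoc, hs2]; group
  · calc s * z * s * (s * z) = s * z * (s * s) * z := by group
      _ = s * (z * z) := by rw [hs2]; group
      _ = t := by rw [hzz, ← mul_assoc, hs2, one_mul]

theorem Fin'.false [Finite H] (c : Fin' T U) : False := by
  obtain ⟨s, hs, hs1, hs2⟩ := exists_inv_mem c.simp
  have hex : ∃ v ∈ U, s • v ≠ v := by
    by_contra h
    push Not at h
    exact hs1 (c.faith hs h)
  obtain ⟨v, hv, hsv⟩ := hex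
  have ha : v + s • v ≠ 0 := fun h => hsv ((add_eq_zero_iff' c.two).mp h)
  have hsa := inv_fix c.two hs2 v
  have hsame := fun t (ht : t ∈ T) ht1 ht2 => c.same hs hs1 hs2 ht ht1 ht2 hv ha
  set a := v + s • v with hadef
  have haU : a ∈ U := U.add_mem hv (c.inv s hs v hv)
  -- an involution not fixing `a`
  have hex : ∃ t ∈ T, t * t = 1 ∧ t • a ≠ a := by
    by_contra h
    push Not at h
    apply c.nf a ha
    intro x hx
    refine c.nfix a ha s hs hs1 hs2 hsa x hx fun e he he2 _ => ?_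
    refine h _ (T.mul_mem (T.mul_mem hx he) (T.inv_mem hx)) ?_
    have : x * e * x⁻¹ * (x * e * x⁻¹) = x * (e * e) * x⁻¹ := by group
    rw [this, he2]; group
  obtain ⟨t, ht, ht2, hta⟩ := hex
  have ht1 : t ≠ 1 := by rintro rfl; exact hta (one_smul _ _)
  obtain ⟨e, he, he1, hes, he2, hc⟩ := exists_comm_inv c.simp c.no4 hs hs1 hs2
  have hea : e • a = a := c.comm he he2 hs hs1 hc.symm haU hsa
  have o1 : Odd (orderOf (s * t)) :=
    (c.odd_or_same hs hs1 hs2 ht ht1 ht2).resolve_right fun h => hta ((h a haU).mp hsa)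
  have o2 : Odd (orderOf (e * t)) :=
    (c.odd_or_same he he1 he2 ht ht1 ht2).resolve_right fun h => hta ((h a haU).mp hea)
  obtain ⟨x, hx, hx2, hxs⟩ := exists_conj_inv hs hs2 ht ht2 o1
  obtain ⟨y, hy, hy2, hye⟩ := exists_conj_inv he he2 ht ht2 o2
  have hx' : x⁻¹ = x := inv_eq_of_mul_eq_one_left hx2
  have hy' : y⁻¹ = y := inv_eq_of_mul_eq_one_left hy2
  have hyx : (y * x) • a = a := by
    refine c.nfix a ha s hs hs1 hs2 hsa _ (T.mul_mem hy hx) fun f hf hf2 hfa => ?_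
    by_cases hf1 : f = 1
    · rw [hf1]; simp
    -- `b = (y x)⁻¹ • a` is fixed by `s`, hence by `f`
    have hb : s • (y * x)⁻¹ • a = (y * x)⁻¹ • a := by
      have e1 : s * (y * x)⁻¹ = (y * x)⁻¹ * e := by
        rw [mul_inv_rev, hx', hy']
        calc s * (x * y) = (x * x) * s * (x * y) := by rw [hx2, one_mul]
          _ = x * (x * s * x) * y := by group
          _ = x * (y * e * y) * y := by rw [hxs, hye]
          _ = x * y * e * (y * y) := by group
          _ = x * y * e := by rw [hy2, mul_one]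
      rw [smul_smul, e1, mul_smul, hea]
    have := (hsame f hf hf1 hf2 hfa _ (c.inv _ (T.inv_mem (T.mul_mem hy hx)) a haU)).mp hb
    rw [mul_smul, mul_smul _ f, this, smul_inv_smul]
  by_cases h1 : y * x = 1
  · have : y = x := by rw [eq_inv_of_mul_eq_one_left h1, hx']
    rw [this, ← hxs] at hye
    exact hes (mul_left_cancel (mul_right_cancel hye))
  · have hxa : x • a = a := by
      refine c.invert hx hx2 (T.mul_mem hy hx) h1 ?_ haU hyx
      rw [mul_inv_rev, hx', hy', mul_assoc, hx2, ← mul_assoc, hx2, one_mul, mul_one]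
    apply hta
    rw [← hxs, mul_smul, mul_smul, hxa, hsa, hxa]

end Cfsg.Agent.ExtPrim
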