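import Cfsg.Agent.ExtPrim.End

/-! Extremely primitive affine groups: the abstract theorem. -/

set_option autoImplicit false

namespace Cfsg.Agent.ExtPrim

open Subgroup MulAction Cfsg.Agent.Perm2

variable {H V : Type*} [Group H] [AddCommGroup V] [DistribMulAction H V]

theorem Ctx.eq [Finite H] [Nontrivial V] {M T : Subgroup H} (c : Ctx V M T) : T = M := by
  by_contra hne
  obtain ⟨g, hg⟩ := c.min.exists_conj_ne c.simp c.nin hne
  have hcomm := (c.eq_or_comm g).resolve_left hg
  obtain ⟨v, hv⟩ := exists_big (V := V) (cj g T)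
  let U : AddSubgroup V :=
    { carrier := {u | ∀ y ∈ cj g T, y • v = v → y • u = u}
      zero_mem' := fun y _ _ => smul_zero y
      add_mem' := fun ha hb y hy h => by rw [smul_add, ha y hy h, hb y hy h]
      neg_mem' := fun ha y hy h => by rw [smul_neg, ha y hy h] }
  have hU : ∀ u ∈ U, u ≠ 0 → IsBig T u := fun u hu hu0 =>
    (c.big_conj g).mp (hv.eq hu0 hu).1
  refine Fin'.false (T := T) (U := U) ⟨c.two, c.simp, ?_, ⟨v, fun _ _ h => h, hv.1⟩, ?_,
    fun v hv => c.not_fix hv, ?_⟩
  · intro t ht u hu y hy h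
    rw [smul_smul, hcomm y hy t ht, mul_smul, hu y hy h]
  · intro u hu hu0 t ht htu ht2 r hr hru hrt
    exact c.P1 hg (hU u hu hu0) ht htu ht2 hr hru hrt
  · intro a ha s hs hs1 hs2 hsa x hx hE
    exact c.norm_fix ha hs hs1 hs2 hsa hx hE

theorem Hyp.almost_simple [Finite H] [Nontrivial V] (h : Hyp H V) (hs : ¬ Group.IsSolvable H)
    (h2 : ∀ v : V, v + v = 0) :
    ∃ T : Subgroup H, T.Normal ∧ IsSimpleGroup T ∧ ¬ IsMulCommutative T ∧
      centralizer (T : Set H) = ⊥ := by
  have hne : (⊤ : Subgroup H) ≠ ⊥ := by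
    intro e
    apply hs
    apply Group.isSolvable_of_comm
    intro x y
    have hx : x ∈ (⊥ : Subgroup H) := e ▸ mem_top x
    rw [mem_bot.mp hx, one_mul, mul_one]
  obtain ⟨M, hM, -⟩ := exists_isMinNormal_le (X := (⊤ : Subgroup H)) inferInstance hne
  rcases hM.structure with ⟨r, hr, hc, he⟩ | ⟨T, hT, hTM⟩
  · exact (h.not_abelian hs h2 hM.1 hM.2.1 hr hc he).elim
  have c : Ctx V M T := ⟨h, h2, hM, hT, hTM⟩
  have e := c.eq
  subst e
  refine ⟨T, hM.1, hT.1, hT.2, ?_⟩
  by_contra hC
  obtain ⟨t, ht, ht1, ht2⟩ := exists_inv_mem hT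
  obtain ⟨v, hv, htv⟩ := exists_fix (V := V) h2 ht2
  haveI := hM.1
  exact ht1 (h.inf_eq_bot hv hM.1 (L := centralizer (T : Set H)) inferInstance hC
    (fun x hx y hy => hy x hx) ht htv)

theorem final [Finite H] [Nontrivial V]
    (irr : ∀ W : AddSubgroup V, (∀ h : H, ∀ w ∈ W, h • w ∈ W) → W = ⊥ ∨ W = ⊤)
    (fa : ∀ h : H, (∀ v : V, h • v = v) → h = 1)
    (max : ∀ v : V, stabilizer H v ≠ ⊤ → IsCoatom (stabilizer H v)) (hs : ¬ Group.IsSolvable H) :
    (∀ v : V, v + v = 0) ∧ ∃ T : Subgroup H, T.Normal ∧ IsSimpleGroup T ∧ ¬ IsMulCommutative T ∧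
      centralizer (T : Set H) = ⊥ := by
  have faith : ∀ K : Subgroup H, K.Normal → ∀ v : V, v ≠ 0 → K ≤ stabilizer H v → K = ⊥ := by
    intro K hK v hv hle
    let W : AddSubgroup V :=
      { carrier := {w | ∀ k ∈ K, k • w = w}
        zero_mem' := fun y _ => smul_zero y
        add_mem' := fun ha hb y hy => by rw [smul_add, ha y hy, hb y hy]
        neg_mem' := fun ha y hy => by rw [smul_neg, ha y hy] }
    rcases irr W (fun g w hw k hk => by
      have := hw _ (hK.conj_mem' k hk g)
      rwa [mul_smul, mul_smul, inv_smul_eq_iff] at this) with e | e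
    · have : v ∈ W := fun k hk => hle hk
      rw [e] at this
      exact absurd this hv
    · rw [eq_bot_iff]
      intro k hk
      refine fa k fun w => ?_
      have : w ∈ W := e ▸ AddSubgroup.mem_top w
      exact this k hk
  have h : Hyp H V := ⟨fun v hv => max v fun e => hs (Group.isSolvable_of_comm fun x y => by
    have hx : x ∈ (⊥ : Subgroup H) := faith ⊤ inferInstance v hv e.ge ▸ mem_top x
    rw [mem_bot.mp hx, one_mul, mul_one]), faith⟩
  have h2 : ∀ v : V, v + v = 0 := by
    obtain ⟨a, ha, ha2⟩ := h.exists_two hs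
    let W : AddSubgroup V :=
      { carrier := {w | w + w = 0}
        zero_mem' := add_zero 0
        add_mem' := fun {a b} ha hb => by
          have ha' : a + a = 0 := ha
          have hb' : b + b = 0 := hb
          show a + b + (a + b) = 0
          rw [add_add_add_comm, ha', hb', add_zero]
        neg_mem' := fun {a} ha => by
          have ha' : a + a = 0 := ha
          show -a + -a = 0
          rw [← neg_add, ha', neg_zero] }
    rcases irr W (fun g w hw => by
      have hw' : w + w = 0 := hw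
      show g • w + g • w = 0
      rw [← smul_add, hw', smul_zero]) with e | e
    · have : a ∈ W := ha2
      rw [e] at this
      exact absurd this ha
    · intro v
      have : v ∈ W := e ▸ AddSubgroup.mem_top v
      exact this
  exact ⟨h2, h.almost_simple hs h2⟩

end Cfsg.Agent.ExtPrim
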