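import Cfsg.Agent.ExtPrim.Basic

/-! Extremely primitive affine groups: the product lemma. -/

set_option autoImplicit false

namespace Cfsg.Agent.ExtPrim

open Subgroup MulAction Cfsg.Agent.Perm2

variable {H V : Type*} [Group H] [AddCommGroup V] [DistribMulAction H V]

/-- The conjugate of a subgroup. -/
abbrev cj (g : H) (T : Subgroup H) : Subgroup H := T.map (MulAut.conj g).toMonoidHom

theorem mem_cj {g x : H} {T : Subgroup H} : x ∈ cj g T ↔ g⁻¹ * x * g ∈ T := mem_map_conj_iff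

theorem cj_mul (g k : H) (T : Subgroup H) : cj (g * k) T = cj g (cj k T) := by
  ext x
  simp only [mem_cj, mul_inv_rev, mul_assoc]

theorem cj_one (T : Subgroup H) : cj 1 T = T := by
  ext x
  simp only [mem_cj, inv_one, one_mul, mul_one]

/-- The situation of a nonabelian minimal normal subgroup. -/
structure Ctx (V : Type*) [AddCommGroup V] [DistribMulAction H V] (M T : Subgroup H) : Prop where
  hyp : Hyp H V
  two : ∀ v : V, v + v = 0
  min : IsMinNormal M
  simp : SimpleNA T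
  nin : NormalIn T M

variable {M T : Subgroup H}

theorem Ctx.conj (c : Ctx V M T) (g : H) : Ctx V M (cj g T) :=
  ⟨c.hyp, c.two, c.min, c.simp.conj g, by haveI := c.min.1; exact c.nin.conj_of_normal g⟩

theorem Ctx.exists_stab (c : Ctx V M T) {v : V} (hv : v ≠ 0) (g : H) :
    ∃ k : H, k • v = v ∧ cj g T = cj k T := by
  obtain ⟨k, hk, m, hm, rfl⟩ := c.hyp.exists_mul' hv c.min.1 c.min.2.1 g
  refine ⟨k, hk, ?_⟩
  rw [cj_mul, show cj m T = T from map_conj_eq_of_mem_normalizer (c.nin.2 hm)]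

theorem Ctx.eq_or_comm (c : Ctx V M T) (g : H) :
    cj g T = T ∨ ∀ x ∈ cj g T, ∀ y ∈ T, x * y = y * x :=
  (c.conj g).simp.eq_or_commute (c.conj g).nin c.simp c.nin

theorem Ctx.not_fix (c : Ctx V M T) {v : V} (hv : v ≠ 0) : ¬ ∀ t ∈ T, t • v = v := by
  intro h
  apply c.min.2.1
  apply c.hyp.faith M c.min.1 v hv
  rw [c.min.eq_iSup_conj c.simp.ne_bot c.nin.1, iSup_le_iff]
  intro g x hx
  obtain ⟨k, hk, e⟩ := c.exists_stab hv g
  have hx' : x ∈ cj k T := e ▸ hx
  rw [mem_cj] at hx'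
  have h1 := h _ hx'
  rw [mul_smul, mul_smul, hk, inv_smul_eq_iff, hk] at h1
  exact h1

/-- The projection of the stabiliser to `T`. -/
def Q (T : Subgroup H) (w : V) : Subgroup H where
  carrier := {x | x ∈ T ∧ ∃ y, (∀ z ∈ T, z * y = y * z) ∧ (x * y) • w = w}
  one_mem' := ⟨T.one_mem, 1, fun z _ => by simp, by simp⟩
  mul_mem' := by
    rintro x x' ⟨hx, y, hy, e⟩ ⟨hx', y', hy', e'⟩
    refine ⟨T.mul_mem hx hx', y * y', fun z hz => ?_, ?_⟩
    · rw [← mul_assoc, hy z hz, mul_assoc, hy' z hz, mul_assoc]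
    · have : x * x' * (y * y') = (x * y) * (x' * y') := by
        rw [mul_assoc x y, ← mul_assoc y, ← hy x' hx']; group
      rw [this, mul_smul, e', e]
  inv_mem' := by
    rintro x ⟨hx, y, hy, e⟩
    refine ⟨T.inv_mem hx, y⁻¹, fun z hz => ?_, ?_⟩
    · rw [mul_inv_eq_iff_eq_mul, mul_assoc, hy z hz]; group
    · rw [← mul_inv_rev, ← hy x hx, inv_smul_eq_iff, e]

theorem mem_Q {w : V} {x : H} :
    x ∈ Q T w ↔ x ∈ T ∧ ∃ y, (∀ z ∈ T, z * y = y * z) ∧ (x * y) • w = w := Iff.rfl

theorem Ctx.not_le_Q (c : Ctx V M T) {w : V} (hw : w ≠ 0) {r : H} (hr : r ∈ T) (hr1 : r ≠ 1)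
    (hrw : r • w = w) : ¬ T ≤ Q T w := by
  intro hle
  have hn : NormalIn (T ⊓ stabilizer H w) T := by
    refine ⟨inf_le_left, ?_⟩
    rw [le_normalizer_iff]
    intro x hx z hz
    have hz1 : z ∈ T := hz.1
    have hz2 : z • w = w := hz.2
    refine ⟨T.mul_mem (T.mul_mem hx hz1) (T.inv_mem hx), ?_⟩
    obtain ⟨-, y, hy, e⟩ := hle hx
    have : x * z * x⁻¹ = (x * y) * z * (x * y)⁻¹ := by
      rw [mul_assoc x y, ← hy z hz1]; group
    show (x * z * x⁻¹) • w = w
    rw [this, mul_smul, inv_smul_eq_iff.mpr e.symm, mul_smul, hz2, e]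
  rcases c.simp.eq_bot_or_eq hn with h | h
  · have : r ∈ T ⊓ stabilizer H w := ⟨hr, hrw⟩
    rw [h] at this
    exact hr1 this
  · apply c.not_fix hw
    intro t ht
    rw [← h] at ht
    exact ht.2

/-- The product lemma. -/
theorem Ctx.prod (c : Ctx V M T) {w : V} (hw : w ≠ 0) {r : H} (hr : r ∈ T) (hr1 : r ≠ 1)
    (hrw : r • w = w) {x y : H} (hx : x ∈ T) (hy : ∀ z ∈ T, z * y = y * z)
    (hxy : (x * y) • w = w) : x • w = w := by
  set P : Subgroup H := ⨆ g : H, Q (cj g T) w with hP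
  have hQP : Q T w ≤ P := by
    have := le_iSup (fun g : H => Q (cj g T) w) 1
    rwa [cj_one] at this
  have h1 : stabilizer H w ≤ normalizer (P : Set H) := by
    rw [le_normalizer_iff]
    intro k hk z hz
    have hk' : k • w = w := hk
    refine iSup_induction _ (C := fun z => k * z * k⁻¹ ∈ P) hz ?_ (by simp) ?_
    · rintro g z ⟨hz, u, hu, e⟩
      refine le_iSup (fun g : H => Q (cj g T) w) (k * g) ⟨?_, k * u * k⁻¹, fun q hq => ?_, ?_⟩
      · rw [cj_mul]; exact conj_mem_map_conj k hz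
      · rw [cj_mul, mem_cj] at hq
        have := hu _ hq
        calc q * (k * u * k⁻¹) = k * (k⁻¹ * q * k * u) * k⁻¹ := by group
          _ = k * u * k⁻¹ * q := by rw [this]; group
      · have : k * z * k⁻¹ * (k * u * k⁻¹) = k * (z * u) * k⁻¹ := by group
        rw [this, mul_smul, inv_smul_eq_iff.mpr hk'.symm, mul_smul, e, hk']
    · intro a b ha hb
      have : k * (a * b) * k⁻¹ = k * a * k⁻¹ * (k * b * k⁻¹) := by group
      rw [this]; exact P.mul_mem ha hb
  rcases c.hyp.dich hw h1 with h2 | h2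
  · have : x ∈ stabilizer H w := h2 ▸ le_normalizer (hQP ⟨hx, y, hy, hxy⟩)
    exact this
  · exfalso
    have hPM : P ≤ M := iSup_le fun g z hz => (c.conj g).nin.1 hz.1
    have hPM' : P = M := by
      rcases c.min.2.2 P h2 hPM with h | h
      · have : r ∈ P := hQP ⟨hr, 1, fun z _ => by simp, by simpa using hrw⟩
        rw [h] at this
        exact absurd this hr1
      · exact h
    apply c.not_le_Q hw hr hr1 hrw
    intro t ht
    have htP : t ∈ P := hPM' ▸ c.nin.1 ht
    have key : ∃ q ∈ Q T w, ∃ d, (∀ z ∈ T, z * d = d * z) ∧ t = q * d := by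
      refine iSup_induction _
        (C := fun t => ∃ q ∈ Q T w, ∃ d, (∀ z ∈ T, z * d = d * z) ∧ t = q * d) htP ?_ ?_ ?_
      · intro g z hz
        rcases c.eq_or_comm g with e | e
        · exact ⟨z, e ▸ hz, 1, fun z _ => by simp, by simp⟩
        · exact ⟨1, one_mem _, z, fun u hu => (e z hz.1 u hu).symm, by simp⟩
      · exact ⟨1, one_mem _, 1, fun z _ => by simp, by simp⟩
      · rintro _ _ ⟨q, hq, d, hd, rfl⟩ ⟨q', hq', d', hd', rfl⟩
        refine ⟨q * q', mul_mem hq hq', d * d', fun z hz => ?_, ?_⟩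
        · rw [← mul_assoc, hd z hz, mul_assoc, hd' z hz, mul_assoc]
        · rw [mul_assoc q d, ← mul_assoc d, ← hd q' hq'.1]; group
    obtain ⟨q, hq, d, hd, e⟩ := key
    have hdT : d ∈ T := by
      have : d = q⁻¹ * t := by rw [e]; group
      rw [this]; exact T.mul_mem (T.inv_mem hq.1) ht
    rw [e, c.simp.eq_one_of_commute hdT hd, mul_one]
    exact hq

theorem Ctx.card_conj (c : Ctx V M T) {v : V} (hv : v ≠ 0) (g : H) :
    Nat.card (cj g T ⊓ stabilizer H v : Subgroup H) =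
      Nat.card (T ⊓ stabilizer H v : Subgroup H) := by
  obtain ⟨k, hk, e⟩ := c.exists_stab hv g
  have : cj k T ⊓ stabilizer H v = cj k (T ⊓ stabilizer H v) := by
    ext x
    simp only [mem_inf, mem_cj, mem_stabilizer_iff, mul_smul, hk, inv_smul_eq_iff]
  rw [e, this, card_map_of_injective (MulAut.conj k).injective]

/-- A vector whose stabiliser in `T` is as large as possible. -/
def IsBig (T : Subgroup H) (u : V) : Prop :=
  u ≠ 0 ∧ ∀ w : V, w ≠ 0 → Nat.card (T ⊓ stabilizer H w : Subgroup H) ≤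
    Nat.card (T ⊓ stabilizer H u : Subgroup H)

theorem Ctx.big_conj (c : Ctx V M T) (g : H) {u : V} : IsBig (cj g T) u ↔ IsBig T u := by
  constructor
  · rintro ⟨hu, h⟩
    refine ⟨hu, fun w hw => ?_⟩
    rw [← c.card_conj hu g, ← c.card_conj hw g]; exact h w hw
  · rintro ⟨hu, h⟩
    refine ⟨hu, fun w hw => ?_⟩
    rw [c.card_conj hu g, c.card_conj hw g]; exact h w hw

theorem IsBig.eq [Finite H] {u w : V} (hu : IsBig T u) (hw : w ≠ 0)
    (hle : ∀ x ∈ T, x • u = u → x • w = w) :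
    IsBig T w ∧ ∀ x ∈ T, x • w = w → x • u = u := by
  have h1 : T ⊓ stabilizer H u ≤ T ⊓ stabilizer H w := fun x hx => ⟨hx.1, hle x hx.1 hx.2⟩
  have h2 := eq_of_le_of_card_ge h1 (hu.2 w hw)
  refine ⟨⟨hw, fun z hz => h2 ▸ hu.2 z hz⟩, fun x hx hxw => ?_⟩
  have : x ∈ T ⊓ stabilizer H w := ⟨hx, hxw⟩
  rw [← h2] at this
  exact this.2

theorem exists_big [Finite H] [Nontrivial V] (T : Subgroup H) : ∃ u : V, IsBig T u := by
  obtain ⟨v, hv⟩ := exists_ne (0 : V)
  have hb : BddAbove ((fun w : V => Nat.card (T ⊓ stabilizer H w : Subgroup H)) '' {w | w ≠ 0}) :=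
    ⟨Nat.card H, by rintro _ ⟨w, -, rfl⟩; exact card_le_card_group _⟩
  obtain ⟨u, hu, e⟩ := Nat.sSup_mem (Set.Nonempty.image _ ⟨v, hv⟩) hb
  refine ⟨u, hu, fun w hw => ?_⟩
  simp only at e
  rw [e]
  exact le_csSup hb ⟨w, hw, rfl⟩

/-- The key trivial-intersection property. -/
theorem Ctx.P1 [Finite H] (c : Ctx V M T) {g : H} (hg : cj g T ≠ T) {u : V} (hu : IsBig T u)
    {t : H} (ht : t ∈ T) (htu : t • u ≠ u) (ht2 : (t * t) • u = u) {r : H} (hr : r ∈ T)
    (hru : r • u = u) (hrt : r • t • u = t • u) : r = 1 := by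
  by_contra hr1
  obtain ⟨k, hk, e⟩ := c.exists_stab hu.1 g
  rw [e] at hg
  have hcomm := (c.eq_or_comm k).resolve_left hg
  have hk' : k⁻¹ • u = u := inv_smul_eq_iff.mpr hk.symm
  set s := k * t * k⁻¹ with hs
  have hsT : s ∈ cj k T := conj_mem_map_conj k ht
  have hsu : s • u ≠ u := by
    intro h
    rw [hs, mul_smul, mul_smul, hk', ← eq_inv_smul_iff, hk'] at h
    exact htu h
  have hs2 : (s * s) • u = u := by
    have : s * s = k * (t * t) * k⁻¹ := by rw [hs]; group
    rw [this, mul_smul, mul_smul, hk', ht2, hk]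
  have hsc : ∀ z ∈ T, z * s = s * z := fun z hz => (hcomm s hsT z hz).symm
  set w := u + (t * s) • u with hw
  have hfix : (t * s) • w = w := by
    have : t * s * (t * s) = (t * t) * (s * s) := by
      rw [mul_assoc t s, ← mul_assoc s, ← hsc t ht]; group
    rw [hw, smul_add, smul_smul, this, mul_smul (t * t), hs2, ht2, add_comm]
  by_cases hw0 : w = 0
  · exact htu (c.prod hu.1 hr hr1 hru ht hsc ((add_eq_zero_iff' c.two).mp hw0))
  have hrw : r • w = w := by
    rw [hw, smul_add, hru, hsc t ht, smul_smul, ← mul_assoc, hsc r hr, mul_assoc, mul_smul s,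
      mul_smul r, hrt, mul_smul s]
  have htw := c.prod hw0 hr hr1 hrw ht hsc hfix
  have ha0 : u + t • u ≠ 0 := fun h => htu ((add_eq_zero_iff' c.two).mp h)
  have hsa : s • (u + t • u) = u + t • u := by
    have e1 : t • (t * s) • u = s • u := by
      rw [smul_smul, ← mul_assoc, hsc _ (T.mul_mem ht ht), mul_smul, ht2]
    rw [hw, smul_add, e1] at htw
    rw [smul_add, smul_smul, ← hsc t ht]
    have h2 := c.two ((t * s) • u)
    have h3 := c.two (t • u)
    calc s • u + (t * s) • u = (t • u + s • u) + (t * s) • u + t • u - (t • u + t • u) := by abel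
      _ = u + t • u + ((t * s) • u + (t * s) • u) - (t • u + t • u) := by rw [htw]; abel
      _ = u + t • u := by rw [h2, h3]; abel
  have hu' : IsBig (cj k T) u := (c.big_conj k).mpr hu
  refine hsu ((hu'.eq ha0 fun x hx hxu => ?_).2 s hsT hsa)
  rw [smul_add, hxu, smul_smul, hcomm x hx t ht, mul_smul, hxu]

/-- An element of `T` permuting the involutions of `T` that fix `a` fixes `a`. -/
theorem Ctx.norm_fix [Finite H] (c : Ctx V M T) {a : V} (ha : a ≠ 0) {s : H} (hs : s ∈ T)
    (hs1 : s ≠ 1) (hs2 : s * s = 1) (hsa : s • a = a) {x : H} (hx : x ∈ T)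
    (hE : ∀ e ∈ T, e * e = 1 → e • a = a → (x * e * x⁻¹) • a = a) : x • a = a := by
  set E : Set H := {e | e * e = 1 ∧ e • a = a ∧ ∃ g, e ∈ cj g T} with hEdef
  have hcl : ∀ y : H, (∀ e ∈ E, y * e * y⁻¹ ∈ E) → ∀ z ∈ closure E, y * z * y⁻¹ ∈ closure E := by
    intro y hy z hz
    induction hz using closure_induction with
    | mem e he => exact subset_closure (hy e he)
    | one => simp
    | mul a b _ _ ha hb =>
      have : y * (a * b) * y⁻¹ = y * a * y⁻¹ * (y * b * y⁻¹) := by group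
      rw [this]; exact mul_mem ha hb
    | inv a _ ha =>
      have : y * a⁻¹ * y⁻¹ = (y * a * y⁻¹)⁻¹ := by group
      rw [this]; exact inv_mem ha
  have hsq : ∀ y e : H, e * e = 1 → y * e * y⁻¹ * (y * e * y⁻¹) = 1 := fun y e he => by
    have : y * e * y⁻¹ * (y * e * y⁻¹) = y * (e * e) * y⁻¹ := by group
    rw [this, he]; group
  have h1 : stabilizer H a ≤ normalizer (closure E : Set H) := by
    rw [le_normalizer_iff]
    intro k hk
    have hk' : k • a = a := hk
    refine hcl k ?_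
    rintro e ⟨he1, he2, g, he3⟩
    refine ⟨hsq k e he1, ?_, k * g, ?_⟩
    · rw [mul_smul, inv_smul_eq_iff.mpr hk'.symm, mul_smul, he2, hk']
    · rw [cj_mul]; exact conj_mem_map_conj k he3
  rcases c.hyp.dich ha h1 with h2 | h2
  · have : x ∈ normalizer (closure E : Set H) := by
      refine mem_normalizer_fintype (hcl x ?_)
      rintro e ⟨he1, he2, g, he3⟩
      rcases c.eq_or_comm g with h | h
      · rw [h] at he3
        exact ⟨hsq x e he1, hE e he3 he1 he2, 1, by
          rw [cj_one]; exact T.mul_mem (T.mul_mem hx he3) (T.inv_mem hx)⟩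
      · have : x * e * x⁻¹ = e := by rw [← h e he3 x hx]; group
        rw [this]
        exact ⟨he1, he2, g, he3⟩
    rw [h2] at this
    exact this
  · exfalso
    have h3 := c.hyp.faith _ h2 a ha (by
      rw [closure_le]
      intro e he
      exact he.2.1)
    have : s ∈ closure E := subset_closure ⟨hs2, hsa, 1, by rw [cj_one]; exact hs⟩
    rw [h3] at this
    exact hs1 this

end Cfsg.Agent.ExtPrim
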